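import Cfsg.Agent.KC.R10.C0x5

set_option maxRecDepth 100000
set_option Elab.async false

namespace Cfsg.Agent.KC.R10

theorem c9x9x0 : run3 9 acc10 13 9 13 9 1 0 = true := by decide +kernel

end Cfsg.Agent.KC.R10
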