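import Cfsg.Agent.KC.R10.C3x9

set_option maxRecDepth 100000
set_option Elab.async false

namespace Cfsg.Agent.KC.R10

theorem c11x1x0 : run3 9 acc10 13 11 5 1 1 0 = true := by decide +kernel
theorem c9x4x0 : run3 9 acc10 13 9 13 4 1 0 = true := by decide +kernel

end Cfsg.Agent.KC.R10
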